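import Cfsg.Agent.CharactersDeep.CosetAverage

/-!
# The fixed space of a normal subgroup as a representation of the quotient (helper619)
-/

set_option autoImplicit false

namespace Cfsg.Agent.H619.SB.FiW

open Cfsg Module
open scoped BigOperators

universe u v w

variable {K : Type u} {F : Type v} [Group K] [Group F] (f : K →* F) (hf : Function.Surjective f)
  {V : Type w} [AddCommGroup V] [Module ℂ V] (ρ : Representation ℂ K V)

include hf in
/-- the representation of `F` on the fixed space of the kernel -/
theorem exists_rep : ∃ σ : Representation ℂ F (Representation.invariants (ρ.comp f.ker.subtype)),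
    ∀ k, σ (f k) = ρ.toInvariants f.ker k := by
  let e := QuotientGroup.quotientKerEquivOfSurjective f hf
  refine ⟨(ρ.quotientToInvariants f.ker).comp e.symm.toMonoidHom, fun k => ?_⟩
  have h : e.symm (f k) = (QuotientGroup.mk k : K ⧸ f.ker) := by
    rw [MulEquiv.symm_apply_eq]
    rfl
  show (ρ.quotientToInvariants f.ker) (e.symm (f k)) = _
  rw [h]
  rfl

include hf in
theorem exists_char [FiniteDimensional ℂ V] : ∃ (W : Type w) (_ : AddCommGroup W) (_ : Module ℂ W)
    (_ : FiniteDimensional ℂ W) (σ : Representation ℂ F W) (ι : W →ₗ[ℂ] V), Function.Injective ι ∧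
      (∀ k w, ι (σ (f k) w) = ρ k (ι w)) ∧ (∀ v, (∀ n ∈ f.ker, ρ n v = v) → ∃ w, ι w = v) ∧
      ∀ [Fintype f.ker] (k : K), σ.character (f k) =
        (Nat.card f.ker : ℂ)⁻¹ * ∑ n : f.ker, ρ.character ((n : K) * k) := by
  obtain ⟨σ, hσ⟩ := exists_rep f hf ρ
  refine ⟨↥(Representation.invariants (ρ.comp f.ker.subtype)), inferInstance, inferInstance, inferInstance, σ,
    Submodule.subtype _, Subtype.val_injective, ?_, ?_, ?_⟩
  · intro k w
    rw [hσ]
    rfl
  · intro v hv
    exact ⟨⟨v, fun n => hv n n.2⟩, rfl⟩
  · intro _ k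
    have h1 : σ.character (f k) = (ρ.toInvariants f.ker).character k := by
      show LinearMap.trace ℂ _ (σ (f k)) = LinearMap.trace ℂ _ _
      rw [hσ]
    rw [h1, CharactersDeep.CosetAverage.character_toInvariants]

end Cfsg.Agent.H619.SB.FiW
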