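import Cfsg.Agent.H480.Ore.BFrame

/-!
# Lifting the centralizer of a transposition (helper619)

`Data x r π` : `x` of order three with `N(⟨x⟩)/⟨x⟩ ≅ Fi24`. A transposition `b` of `Fi24` lifts to an involution `n`
inverting `x`, and `C(x) ∩ C(n)` maps onto `C(b) ∩ Fi24'`.
-/

set_option autoImplicit false

namespace Cfsg.Agent.H619.SB.FiW

open Cfsg Cfsg.Agent.H849.ThreeNorm Cfsg.Agent.H480.Ore
open Cfsg.Agent.R08 Cfsg.Agent.R08.FiTwentyFour
open Cfsg.Spor (Fi24)
open Subgroup (centralizer mem_centralizer_singleton_iff zpowers center)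

variable {G : Type*} [Group G] {x r : G} {π : centralizer ({x} : Set G) →* ↥(_root_.commutator Fi24)}
  (D : Data x r π)
include D

theorem exists_lift [Finite G] {b : Fi24} (hb : b ∈ L) : ∃ n : G, n * n = 1 ∧ n * x * n⁻¹ = x⁻¹ ∧
    (∀ k : centralizer ({x} : Set G), (k : G) * n = n * k → (π k : Fi24) * b = b * π k) ∧
    (∀ y : ↥(_root_.commutator Fi24), (y : Fi24) * b = b * y →
      ∃ k : centralizer ({x} : Set G), (k : G) * n = n * k ∧ π k = y) := by
  obtain ⟨n, hn⟩ := (au_surj D).1 (MulAut.conjNormal b)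
  obtain ⟨hii, hix⟩ := inv_of_au D hb hn
  have h3k : ∀ k : ℤ, x ^ (3 * k) = 1 := fun k => by
    rw [zpow_mul, show ((3 : ℤ)) = ((3 : ℕ) : ℤ) by norm_num, zpow_natCast, ← D.ord, pow_orderOf_eq_one, one_zpow]
  -- the map `C(x) → Fi24`
  have hcj : ∀ g : centralizer ({x} : Set G), (π (cj D.ord n g) : Fi24) = b * π g * b⁻¹ := by
    intro g
    have h2 : D.au n (π g) = _ := D.au_apply n _
    have h3 : D.au n = MulAut.conjNormal b := hn
    rw [h3] at h2
    have h4 := congrArg Subtype.val h2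
    rw [MulAut.conjNormal_apply] at h4
    exact h4.symm
  refine ⟨n, hii, hix, ?_, ?_⟩
  · intro k hk
    have h1 : cj D.ord n k = k := by
      apply Subtype.ext
      rw [cj_coe]
      rw [← hk, mul_inv_cancel_right]
    have h2 := hcj k
    rw [h1] at h2
    exact eq_mul_inv_iff_mul_eq.1 h2
  · intro y hy
    obtain ⟨g, rfl⟩ := D.surj y
    have h2 := hcj g
    rw [← hy, mul_inv_cancel_right] at h2
    -- `n g n⁻¹ = x ^ m g`
    have h3 : π (cj D.ord n g * g⁻¹) = 1 := by
      rw [map_mul, map_inv, show π (cj D.ord n g) = π g from Subtype.ext h2, mul_inv_cancel]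
    obtain ⟨m, hm⟩ := Subgroup.mem_zpowers_iff.1 ((D.ker _).1 h3)
    have hm' : (n : G) * g * (n : G)⁻¹ = x ^ m * g := by
      have h4 : x ^ m = (n : G) * g * (n : G)⁻¹ * (g : G)⁻¹ := by
        rw [hm, Subgroup.coe_mul, cj_coe, Subgroup.coe_inv]
      rw [h4, inv_mul_cancel_right]
    have hgx : (g : G) * x = x * g := mem_centralizer_singleton_iff.1 g.2
    have hxi : ∀ m : ℤ, (n : G) * x ^ m * (n : G)⁻¹ = (x ^ m)⁻¹ := fun m => by rw [← conj_zpow, hix, inv_zpow]
    have hsx : x ^ (2 * m) ∈ centralizer ({x} : Set G) :=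
      mem_centralizer_singleton_iff.2 ((Commute.refl x).zpow_left (2 * m))
    refine ⟨⟨x ^ (2 * m), hsx⟩ * g, ?_, ?_⟩
    · show x ^ (2 * m) * (g : G) * n = n * (x ^ (2 * m) * g)
      have h6 : (n : G) * (x ^ (2 * m) * g) * (n : G)⁻¹ = x ^ (2 * m) * g := by
        calc (n : G) * (x ^ (2 * m) * g) * (n : G)⁻¹
            = ((n : G) * x ^ (2 * m) * (n : G)⁻¹) * ((n : G) * g * (n : G)⁻¹) := by group
          _ = (x ^ (2 * m))⁻¹ * (x ^ m * g) := by rw [hxi, hm']
          _ = x ^ (2 * m) * (x ^ (3 * (-m)) * g) := by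
            rw [← mul_assoc, ← mul_assoc, ← zpow_neg, ← zpow_add, ← zpow_add]
            congr 2
            ring
          _ = x ^ (2 * m) * g := by rw [h3k, one_mul]
      exact (mul_inv_eq_iff_eq_mul.1 h6).symm
    · rw [map_mul, (D.ker ⟨x ^ (2 * m), hsx⟩).2 (Subgroup.mem_zpowers_iff.2 ⟨2 * m, rfl⟩), one_mul]

/-- a transposition does not centralize `Fi24'` -/
theorem exists_not_comm [Finite G] {b : Fi24} (hb : b ∈ L) : ∃ g : centralizer ({x} : Set G), (π g : Fi24) * b ≠ b * π g := by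
  by_contra hcon
  push Not at hcon
  have h1 : (MulAut.conjNormal b : MulAut ↥(_root_.commutator Fi24)) = MulAut.conjNormal (1 : Fi24) := by
    refine MulEquiv.ext fun f => ?_
    obtain ⟨g, rfl⟩ := D.surj f
    apply Subtype.ext
    rw [MulAut.conjNormal_apply, MulAut.conjNormal_apply, ← hcon g]
    group
  have h2 := (au_surj D).2 h1
  apply odd hb
  rw [h2]
  exact one_mem _

end Cfsg.Agent.H619.SB.FiW
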