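import Cfsg.Agent.Characters.Core
import Cfsg.Agent.H466.CCRep

/-!
# Constituents of a representation with a fixed vector of a point stabilizer (helper619)

`F` acts transitively on `X` with `#Fix = 1 + χ₁ + χ₂`; a representation of `F` with a vector fixed by the stabilizer of a
point, not fixed by `F`, has `χ₁` or `χ₂` as a constituent.
-/

set_option autoImplicit false

namespace Cfsg.Agent.H619.SB.FiW

open Cfsg Cfsg.Agent.Characters.Core Module
open scoped BigOperators ComplexConjugate

universe u v w

/-- the sum of a class function times the permutation character -/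
theorem sum_stab {F : Type u} [Group F] [Fintype F] {X : Type v} [MulAction F X] [Finite X]
    (ht : ∀ x y : X, ∃ g : F, g • x = y) {ψ : F → ℂ} (hψ : IsClassFunction F ψ) (x₀ : X) :
    ∑ g : F, ψ g * (Nat.card (MulAction.fixedBy X g) : ℂ) =
      (Nat.card X : ℂ) * ∑ᶠ g : MulAction.stabilizer F x₀, ψ g := by
  classical
  have := Fintype.ofFinite X
  have h1 : ∀ g : F, (Nat.card (MulAction.fixedBy X g) : ℂ) = ∑ x : X, if g • x = x then (1 : ℂ) else 0 := by
    intro g
    rw [Finset.sum_ite, Finset.sum_const_zero, add_zero, Finset.sum_const, nsmul_eq_mul, mul_one,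
      Nat.card_eq_fintype_card, ← Fintype.card_subtype]
    rfl
  have h2 : ∀ x : X, ∑ g : F, (if g • x = x then ψ g else 0) = ∑ g : F, (if g • x₀ = x₀ then ψ g else 0) := by
    intro x
    obtain ⟨k, rfl⟩ := ht x₀ x
    refine Fintype.sum_equiv (MulAut.conj k⁻¹).toEquiv _ _ fun g => ?_
    have e : (MulAut.conj k⁻¹).toEquiv g = k⁻¹ * g * k := by
      simp [MulAut.conj_apply]
    rw [e]
    have e1 : ψ (k⁻¹ * g * k) = ψ g := by
      have := hψ g k⁻¹
      rwa [inv_inv] at this
    have e2 : (k⁻¹ * g * k) • x₀ = x₀ ↔ g • k • x₀ = k • x₀ := by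
      rw [mul_smul, mul_smul, inv_smul_eq_iff]
    simp only [e1, e2]
  have h3 : ∑ᶠ g : MulAction.stabilizer F x₀, ψ g = ∑ g : F, (if g • x₀ = x₀ then ψ g else 0) := by
    rw [finsum_eq_sum_of_fintype, ← Finset.sum_filter]
    refine (Finset.sum_subtype _ (fun g => ?_) _).symm
    rw [Finset.mem_filter, MulAction.mem_stabilizer_iff]
    simp
  calc ∑ g : F, ψ g * (Nat.card (MulAction.fixedBy X g) : ℂ)
      = ∑ g : F, ∑ x : X, (if g • x = x then ψ g else 0) := by
        refine Finset.sum_congr rfl fun g _ => ?_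
        rw [h1, Finset.mul_sum]
        refine Finset.sum_congr rfl fun x _ => ?_
        split_ifs <;> simp
    _ = ∑ x : X, ∑ g : F, (if g • x = x then ψ g else 0) := Finset.sum_comm
    _ = ∑ x : X, ∑ g : F, (if g • x₀ = x₀ then ψ g else 0) := Finset.sum_congr rfl fun x _ => h2 x
    _ = _ := by
      rw [Finset.sum_const, Finset.card_univ, nsmul_eq_mul, h3, Nat.card_eq_fintype_card]

theorem exists_constituent {F : Type u} [Group F] [Fintype F] {X : Type v} [MulAction F X] [Finite X]
    (ht : ∀ x y : X, ∃ g : F, g • x = y) {χ₁ χ₂ : F → ℂ} (hr1 : ∀ g, (χ₁ g).im = 0) (hr2 : ∀ g, (χ₂ g).im = 0)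
    (hfix : ∀ g : F, (Nat.card (MulAction.fixedBy X g) : ℂ) = 1 + χ₁ g + χ₂ g)
    {W : Type w} [AddCommGroup W] [Module ℂ W] [FiniteDimensional ℂ W] (σ : Representation ℂ F W) (x₀ : X) {u : W}
    (hu : ∀ g : F, g • x₀ = x₀ → σ g u = u) {g : F} (hg : σ g u ≠ u) :
    classInner σ.character χ₁ ≠ 0 ∨ classInner σ.character χ₂ ≠ 0 := by
  classical
  by_contra hcon
  push Not at hcon
  obtain ⟨h1, h2⟩ := hcon
  have hF : (Nat.card F : ℂ) ≠ 0 := by exact_mod_cast (Nat.card_pos (α := F)).ne'
  have hconj : ∀ z : ℂ, z.im = 0 → conj z = z := fun z hz => Complex.conj_eq_iff_im.2 hz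
  have e1 : ∑ g : F, σ.character g * χ₁ g = 0 := by
    rw [classInner_def] at h1
    have := (mul_eq_zero.1 h1).resolve_left (inv_ne_zero hF)
    rw [← this]
    exact Finset.sum_congr rfl fun g _ => by rw [hconj _ (hr1 g)]
  have e2 : ∑ g : F, σ.character g * χ₂ g = 0 := by
    rw [classInner_def] at h2
    have := (mul_eq_zero.1 h2).resolve_left (inv_ne_zero hF)
    rw [← this]
    exact Finset.sum_congr rfl fun g _ => by rw [hconj _ (hr2 g)]
  have hcl : IsClassFunction F σ.character := fun g h => Representation.char_conj σ g h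
  have e3 := sum_stab ht hcl x₀
  have e4 : ∑ g : F, σ.character g * (Nat.card (MulAction.fixedBy X g) : ℂ) = ∑ g : F, σ.character g := by
    calc ∑ g : F, σ.character g * (Nat.card (MulAction.fixedBy X g) : ℂ)
        = ∑ g : F, (σ.character g + σ.character g * χ₁ g + σ.character g * χ₂ g) := by
          refine Finset.sum_congr rfl fun g _ => ?_
          rw [hfix]; ring
      _ = _ := by rw [Finset.sum_add_distrib, Finset.sum_add_distrib, e1, e2, add_zero, add_zero]
  rw [e4, H466.CCRep.sum_eq] at e3
  have e5 : ∑ g : F, σ.character g = (Nat.card F : ℂ) * (finrank ℂ (Representation.invariants σ) : ℂ) := by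
    have : Invertible (Nat.card F : ℂ) := invertibleOfNonzero hF
    have h := Representation.card_inv_mul_sum_char_eq_finrank (ρ := σ)
    rw [← h, ← mul_assoc, mul_inv_cancel₀ hF, one_mul]
  have e6 : (Nat.card F : ℂ) = (Nat.card X : ℂ) * (Nat.card (MulAction.stabilizer F x₀) : ℂ) := by
    have h : Nat.card F = Nat.card X * Nat.card (MulAction.stabilizer F x₀) := by
      have : MulAction.IsPretransitive F X := ⟨ht⟩
      rw [← MulAction.index_stabilizer_of_transitive F x₀, Subgroup.index_mul_card]
    rw [h]; push_cast; rfl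
  rw [e5, ← mul_assoc, ← e6] at e3
  have e7 : finrank ℂ (Representation.invariants σ) =
      finrank ℂ (Representation.invariants (σ.comp (MulAction.stabilizer F x₀).subtype)) := by
    exact_mod_cast mul_left_cancel₀ hF e3
  have hle : Representation.invariants σ ≤ Representation.invariants (σ.comp (MulAction.stabilizer F x₀).subtype) :=
    fun w hw h => hw h
  have e8 := Submodule.eq_of_le_of_finrank_eq hle e7
  have hmem : u ∈ Representation.invariants (σ.comp (MulAction.stabilizer F x₀).subtype) := fun h => hu h h.2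
  rw [← e8] at hmem
  exact hg (hmem g)

end Cfsg.Agent.H619.SB.FiW
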